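import Cfsg.Agent.Lib.FusionBasics.CenterPower.Group
import Cfsg.Agent.Lib.FusionBasics.ControlTransfer.Local
import Cfsg.Agent.Lib.FusionBasics.Normal
import Cfsg.Agent.Lib.FusionSub.Puig
import Cfsg.Agent.Lib.FusionSub.NormalCriterion
import Cfsg.Agent.Lib.FusionModels.Model

/-!
A functor with the quadratic element condition controls the `p`-th powers of the centre in
saturated fusion systems.
-/

set_option autoImplicit false
set_option linter.style.haveILetI false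
set_option linter.unusedSectionVars false

namespace CfsgLib.FusionBasics.CenterPower

open Cfsg Cfsg.FusionSystem CfsgLib.Alperin CfsgLib.FusionSub
  CfsgLib.FusionBasics.ControlTransfer

universe u

variable {p : ℕ} [Fact p.Prime] {W : ∀ (Q : Type u) [Group Q], Subgroup Q}

/-- All maps of the system fix `y`. -/
def Fix {Ω : Type u} [Group Ω] {S : Subgroup Ω} (F : FusionSystem S) (y : Ω) : Prop :=
  ∀ (P : Subgroup Ω) (φ : P →* Ω), φ ∈ F.Hom P → ∀ h : y ∈ P, φ ⟨y, h⟩ = y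

/-- The maps stabilizing `W(S)` fix `y`. -/
def FixW (W : ∀ (Q : Type u) [Group Q], Subgroup Q) {Ω : Type u} [Group Ω] {S : Subgroup Ω}
    (F : FusionSystem S) (y : Ω) : Prop :=
  ∀ φ ∈ F.Hom (wof W S), (∀ x : wof W S, φ x ∈ wof W S) → ∀ h : y ∈ wof W S, φ ⟨y, h⟩ = y

/-- The statement, one system at a time. -/
def Holds (p : ℕ) (W : ∀ (Q : Type u) [Group Q], Subgroup Q) {Ω : Type u} [Group Ω]
    {S : Subgroup Ω} (F : FusionSystem S) : Prop :=
  ∀ z ∈ S, (∀ x ∈ S, x * z = z * x) → FixW W F (z ^ p) → Fix F (z ^ p)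

variable {Ω : Type u} [Group Ω] {S : Subgroup Ω} [Finite S]

theorem mem_wof (hWZ : ∀ (Q : Type u) [Group Q] [Finite Q], IsPGroup p Q → Subgroup.center Q ≤ W Q)
    (hS : IsPGroup p S) {z : Ω} (hz : z ∈ S) (hzc : ∀ x ∈ S, x * z = z * x) :
    z ∈ wof W S :=
  ⟨⟨z, hz⟩, hWZ S hS (Subgroup.mem_center_iff.2 fun x => Subtype.ext (hzc (x : Ω) x.2)), rfl⟩

/-- A map stabilizing a subgroup normalized by `S` that is not normal in the system fixes `y`. -/
theorem fix_of_normalized (hS : IsPGroup p S) {F : FusionSystem S} (hF : F.IsSaturated p)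
    (hsame : ∀ E : FusionSystem S, E.IsSaturated p → (ControlTransfer.homSet E).ncard < (ControlTransfer.homSet F).ncard →
      Holds p W E) {z : Ω} (hz : z ∈ S) (hzc : ∀ x ∈ S, x * z = z * x)
    (hfix : FixW W F (z ^ p)) {U : Subgroup Ω} (hUS : U ≤ S)
    (hSU : normalizerIn S U = S) (hUn : ¬ F.IsNormal U)
    {P : Subgroup Ω} {φ : P →* Ω} (hφ : φ ∈ F.normalizerHom U P) (h : z ^ p ∈ P) :
    φ ⟨z ^ p, h⟩ = z ^ p := by
  obtain ⟨E, hE⟩ := exists_normalizerSystem F hUS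
  have hUfn : F.IsFullyNormalized U :=
    ⟨hUS, fun Q _ => by rw [hSU]; exact Subgroup.card_le_of_le (normalizerIn_le S Q)⟩
  haveI := finite_of_le (normalizerIn_le S U)
  have hEs := Cfsg.Agent.S5098.result p hS F hF U hUfn E hE
  have hsub : ∀ P, E.Hom P ⊆ F.Hom P := fun Q χ hχ => by
    rw [hE] at hχ
    exact hχ.1
  have key : ∀ (T : Subgroup Ω), T = S → ∀ E : FusionSystem T, E.IsSaturated p →
      (∀ P, E.Hom P ⊆ F.Hom P) → (∃ (Q : Subgroup Ω) (χ : Q →* Ω), χ ∈ F.Hom Q ∧ χ ∉ E.Hom Q) →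
      Fix E (z ^ p) := by
    rintro T rfl E hEs hsub ⟨Q, χ, hχ, hχE⟩
    refine hsame E hEs (Set.ncard_lt_ncard ⟨fun w hw => hsub _ hw, fun h => hχE (h (show
      (⟨Q, χ⟩ : Σ P : Subgroup Ω, (P →* Ω)) ∈ ControlTransfer.homSet F from hχ))⟩ (homSet_finite F)) z hz hzc
      fun ψ hψ => hfix ψ (hsub _ hψ)
  refine key _ hSU E hEs hsub ?_ P φ (by rw [hE]; exact hφ) h
  by_contra hc
  push Not at hc
  refine hUn ⟨hUS, fun Q χ hχ => ?_⟩
  have h' := hc Q χ hχ
  rw [hE] at h'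
  exact h'.2.2.2

/-- The maps that extend to `y` fixing it. -/
def Ext (F : FusionSystem S) (y : Ω) (P : Subgroup Ω) (φ : P →* Ω) : Prop :=
  ∃ ψ ∈ F.Hom (P ⊔ Subgroup.zpowers y),
    (∀ x : P, ψ (Subgroup.inclusion le_sup_left x) = φ x) ∧
      ψ ⟨y, Subgroup.mem_sup_right (Subgroup.mem_zpowers y)⟩ = y

theorem Ext.fix {F : FusionSystem S} {y : Ω} {P : Subgroup Ω} {φ : P →* Ω} (h : Ext F y P φ)
    (hy : y ∈ P) : φ ⟨y, hy⟩ = y := by
  obtain ⟨ψ, -, hψx, hψy⟩ := h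
  exact (hψx ⟨y, hy⟩).symm.trans hψy

theorem ext_apply_mem {y : Ω} {P Q : Subgroup Ω}
    {φ : P →* Ω} {ψ : ↥(P ⊔ Subgroup.zpowers y) →* Ω}
    (hψx : ∀ x : P, ψ (Subgroup.inclusion le_sup_left x) = φ x)
    (hψy : ψ ⟨y, Subgroup.mem_sup_right (Subgroup.mem_zpowers y)⟩ = y)
    (h : ∀ x : P, φ x ∈ Q) (x : ↥(P ⊔ Subgroup.zpowers y)) : ψ x ∈ Q ⊔ Subgroup.zpowers y := by
  refine apply_mem_of_sup ψ (fun w => Subgroup.mem_sup_left (by rw [hψx]; exact h w)) (fun w => ?_) x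
  obtain ⟨k, hk⟩ := Subgroup.mem_zpowers_iff.1 w.2
  have e : (Subgroup.inclusion le_sup_right w : ↥(P ⊔ Subgroup.zpowers y)) =
      ⟨y, Subgroup.mem_sup_right (Subgroup.mem_zpowers y)⟩ ^ k := Subtype.ext hk.symm
  rw [e, map_zpow, hψy]
  exact Subgroup.mem_sup_right (Subgroup.zpow_mem _ (Subgroup.mem_zpowers y) k)

theorem closed_ext (F : FusionSystem S) (y : Ω) : Closed F (Ext F y) where
  restrict {P Q φ} hQ _ h := by
    obtain ⟨ψ, hψ, hψx, hψy⟩ := h
    exact ⟨_, restrict_mem hψ (sup_le_sup_right hQ _), fun x => hψx (Subgroup.inclusion hQ x), hψy⟩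
  comp {P Q φ χ} _ _ h h₁ h₂ := by
    obtain ⟨ψ, hψ, hψx, hψy⟩ := h₁
    obtain ⟨η, hη, hηx, hηy⟩ := h₂
    refine ⟨_, F.comp_mem hψ hη (ext_apply_mem hψx hψy h), fun x => ?_, ?_⟩
    · show η ⟨ψ (Subgroup.inclusion le_sup_left x), _⟩ = χ ⟨φ x, h x⟩
      rw [← hηx]
      exact congrArg η (Subtype.ext (hψx x))
    · show η ⟨ψ ⟨y, _⟩, _⟩ = y
      exact (congrArg η (Subtype.ext hψy)).trans hηy
  inv {P Q φ χ} _ _ hr hχ h := by
    obtain ⟨ψ, hψ, hψx, hψy⟩ := h
    obtain ⟨η, hη, -, hη1, -⟩ := exists_inverse hψ (rfl : ψ.range = ψ.range)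
    have hle : Q ⊔ Subgroup.zpowers y ≤ ψ.range := by
      refine sup_le (fun q hq => ?_) (Subgroup.zpowers_le.2 ⟨_, hψy⟩)
      obtain ⟨x, rfl⟩ := hr.ge hq
      exact ⟨_, hψx x⟩
    refine ⟨η.comp (Subgroup.inclusion hle), restrict_mem hη _, fun q => ?_, ?_⟩
    · obtain ⟨x, hx⟩ := hr.ge q.2
      obtain rfl : q = ⟨φ x, hr.le ⟨x, rfl⟩⟩ := Subtype.ext hx.symm
      rw [hχ]
      show η (Subgroup.inclusion hle (Subgroup.inclusion le_sup_left _)) = (x : Ω)
      have := hη1 (Subgroup.inclusion le_sup_left x) ⟨_, rfl⟩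
      refine Eq.trans ?_ this
      exact congrArg η (Subtype.ext (hψx x).symm)
    · have := hη1 ⟨y, Subgroup.mem_sup_right (Subgroup.mem_zpowers y)⟩ ⟨_, rfl⟩
      refine Eq.trans ?_ this
      exact congrArg η (Subtype.ext hψy.symm)

/-- The case `y ∈ O_p(F)`. -/
theorem fix_of_mem_core (hW : IsNatural p W) (hq : QuadraticCond p W)
    (hWZ : ∀ (Q : Type u) [Group Q] [Finite Q], IsPGroup p Q → Subgroup.center Q ≤ W Q)
    (hS : IsPGroup p S) {F : FusionSystem S} (hF : F.IsSaturated p)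
    (hsame : ∀ E : FusionSystem S, E.IsSaturated p → (ControlTransfer.homSet E).ncard < (ControlTransfer.homSet F).ncard →
      Holds p W E) {z : Ω} (hz : z ∈ S) (hzc : ∀ x ∈ S, x * z = z * x)
    (hfix : FixW W F (z ^ p)) {Z : Subgroup Ω} (hZdef : Z = F.core) (hyZ : z ^ p ∈ Z) :
    Fix F (z ^ p) := by
  have hZn : F.IsNormal Z := hZdef ▸ CfsgLib.FusionExamples.isNormal_core F
  have hZS := hZn.1
  have hZfn := CfsgLib.FusionExamples.isFullyNormalized_of_isNormal hZn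
  haveI := finite_of_le hZS
  suffices hA : ∀ φ : Z →* Ω, φ ∈ F.Hom Z → (∀ x, φ x ∈ Z) → φ ⟨z ^ p, hyZ⟩ = z ^ p by
    intro P φ hφ hy
    obtain ⟨ψ, hψ, hψx, hψZ⟩ := hZn.2 P φ hφ
    refine (hψx ⟨_, hy⟩).symm.trans ?_
    exact hA _ (restrict_mem hψ (le_sup_right : Z ≤ P ⊔ Z))
      fun x => hψZ.le ⟨_, Subgroup.mem_subgroupOf.mpr x.2, rfl⟩
  intro φ hφ hφZ
  by_cases hc : centralizerIn S Z ≤ Z
  · have hZc : F.IsCentric Z := ⟨hZS, fun Q hQ => by
      rw [CfsgLib.FusionExamples.eq_of_isConj_of_isNormal hZn hQ]; exact hc⟩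
    obtain ⟨L, _, ι, ρ, h⟩ := CfsgLib.FusionModels.exists_localModel hS hF hZfn hZc
      (autInducedBy_le_autGroup F hZS) le_rfl
    obtain ⟨hfin, ⟨hinj, hreal⟩, ⟨T, hT⟩, hC⟩ := h.isModel hS hZn
    haveI := hfin
    set j := ι.comp (Subgroup.inclusion (CfsgLib.FusionModels.le_normalizerIn_of_isNormal hZn))
    have hy : z ^ p ∈ S := pow_mem hz p
    have hV : wof W (T : Subgroup L) = (W S).map j := wof_map hW hS j hinj hT.symm
    have hgrp := group_fixed hW hq T hC (z := j ⟨z, hz⟩) (hT ▸ ⟨_, rfl⟩) (by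
      rw [hT]
      rintro _ ⟨x, rfl⟩
      rw [← map_mul, ← map_mul]
      exact congrArg j (Subtype.ext (hzc (x : Ω) x.2))) (by
      intro g hg
      rw [Subgroup.mem_centralizer_iff]
      intro _ hw
      obtain rfl := hw
      rw [hV] at hg
      have hr : ∀ x : wof W S,
          g * j (Subgroup.inclusion (wof_le S) x) * g⁻¹ ∈ (W S).map j := by
        rintro ⟨_, x, hx, rfl⟩
        exact (Subgroup.mem_normalizer_iff.1 hg _).1 ⟨x, hx, rfl⟩
      let e : S ≃* j.range := MonoidHom.ofInjective hinj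
      let f : wof W S →* j.range := MonoidHom.codRestrict
        ((MulAut.conj g).toMonoidHom.comp (j.comp (Subgroup.inclusion (wof_le S)))) j.range
        fun x => Subgroup.map_le_range j _ (hr x)
      set ψ : wof W S →* Ω := S.subtype.comp (e.symm.toMonoidHom.comp f)
      have hψS : ∀ x, ψ x ∈ S := fun x => (e.symm (f x)).2
      have hψι : ∀ x, j ⟨ψ x, hψS x⟩ = g * j ⟨(x : Ω), wof_le S x.2⟩ * g⁻¹ := fun x => by
        show j (e.symm (f x)) = _
        have h' : j (e.symm (f x)) = (f x : L) := congrArg Subtype.val (e.apply_symm_apply (f x))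
        rw [h']
        rfl
      have hψ : ψ ∈ F.Hom (wof W S) := (hreal _ (wof_le S) ψ hψS).2 ⟨g, hψι⟩
      have hψW : ∀ x, ψ x ∈ wof W S := fun x => by
        have h1 := hr x
        rw [show j (Subgroup.inclusion (wof_le S) x) = j ⟨(x : Ω), wof_le S x.2⟩ from rfl,
          ← hψι x] at h1
        obtain ⟨v, hv, hve⟩ := h1
        exact ⟨v, hv, congrArg Subtype.val (hinj hve)⟩
      have hyW : z ^ p ∈ wof W S := pow_mem (mem_wof hWZ hS hz hzc) p
      have h1 := hψι ⟨z ^ p, hyW⟩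
      have h2 := hfix ψ hψ hψW hyW
      have h3 : j ⟨ψ ⟨z ^ p, hyW⟩, hψS _⟩ = j ⟨z, hz⟩ ^ p := by
        rw [← map_pow]
        exact congrArg j (Subtype.ext h2)
      rw [h3] at h1
      have h4 : (⟨z ^ p, hy⟩ : S) = ⟨z, hz⟩ ^ p := Subtype.ext rfl
      rw [h4, map_pow] at h1
      exact eq_mul_inv_iff_mul_eq.1 h1)
    obtain ⟨g, hg⟩ := (hreal Z hZS φ (apply_mem hφ)).1 hφ
    have h1 := hg ⟨z ^ p, hyZ⟩
    have h4 : (⟨z ^ p, hy⟩ : S) = ⟨z, hz⟩ ^ p := Subtype.ext rfl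
    rw [show (⟨((⟨z ^ p, hyZ⟩ : Z) : Ω), hZS hyZ⟩ : S) = ⟨z, hz⟩ ^ p from h4, map_pow,
      hgrp g, mul_inv_cancel_right, ← map_pow] at h1
    exact congrArg Subtype.val (hinj h1)
  obtain ⟨α, hα, hαx⟩ := exists_aut_of_hom' F hφ hφZ
  have hm := (mem_autGroup_iff F hZS).mp hα
  obtain ⟨ψ, hψ, hψx⟩ := (receptive_of_fullyNormalized hS hF hZfn).2 Z _ hm (by
    ext y
    constructor
    · rintro ⟨x, rfl⟩
      exact (α x).2
    · intro hy
      exact ⟨α.symm ⟨y, hy⟩, by simp⟩)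
  set R := Z ⊔ centralizerIn S Z with hR
  have hRS : R ≤ S := sup_le hZS (centralizerIn_le S Z)
  have hRext : R ≤ extender S Z (Z.subtype.comp α.toMonoidHom) :=
    sup_centralizerIn_le_extender hm
  have hψR := restrict_mem hψ hRext
  set ψ₁ := ψ.comp (Subgroup.inclusion hRext)
  have hψ₁Z : ∀ w : R, (w : Ω) ∈ Z → ψ₁ w ∈ Z := fun w hw => by
    have e : ψ (Subgroup.inclusion hRext w) = ((α ⟨w, hw⟩ : Z) : Ω) :=
      hψx (w : Ω) hw (hRext w.2)
    show ψ (Subgroup.inclusion hRext w) ∈ Z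
    rw [e]
    exact (α _).2
  have hψ₁m := map_subgroupOf_eq (F.injective_of_mem hψR) (le_sup_left : Z ≤ R) hψ₁Z
  have hmap : ∀ w : R, ψ₁ w ∈ R := fun w =>
    apply_mem_of_sup (P := Z) (Q := centralizerIn S Z) (U := R) ψ₁
      (fun v => Subgroup.mem_sup_left (hψ₁Z _ v.2))
      (fun v => Subgroup.mem_sup_right (apply_mem_centralizerIn hψR le_sup_left hψ₁m _ v.2.2)) w
  haveI := finite_of_le hRS
  have hSR : normalizerIn S R = S := by
    refine le_antisymm inf_le_left fun s hs => ⟨hs, ?_⟩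
    have hsZ : s ∈ Subgroup.normalizer (Z : Set Ω) :=
      stronglyClosed_le_normalizer (isNormal_stronglyClosed hZn) hs
    have hconj : ∀ {t : Ω}, t ∈ S → t ∈ Subgroup.normalizer (Z : Set Ω) →
        ∀ w ∈ R, t * w * t⁻¹ ∈ R := by
      intro t ht htZ w hw
      have hle : R ≤ R.comap (MulAut.conj t).toMonoidHom := by
        refine sup_le (fun a ha => Subgroup.mem_sup_left ?_) (fun c hc => Subgroup.mem_sup_right ?_)
        · exact (Subgroup.mem_normalizer_iff.1 htZ a).1 ha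
        · refine ⟨S.mul_mem (S.mul_mem ht hc.1) (S.inv_mem ht), fun a ha => ?_⟩
          have h1 := hc.2 (t⁻¹ * a * t) (by
            simpa using (Subgroup.mem_normalizer_iff.1 (inv_mem htZ) a).1 ha)
          calc a * (t * c * t⁻¹) = t * ((t⁻¹ * a * t) * c) * t⁻¹ := by group
            _ = t * (c * (t⁻¹ * a * t)) * t⁻¹ := by rw [h1]
            _ = t * c * t⁻¹ * a := by group
      exact hle hw
    refine Subgroup.mem_normalizer_iff.2 fun w => ⟨hconj hs hsZ w, fun hw => ?_⟩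
    simpa [mul_assoc] using hconj (S.inv_mem hs) (inv_mem hsZ) _ hw
  have hRn : ¬ F.IsNormal R := fun h =>
    hc ((le_sup_right : _ ≤ R).trans
      ((CfsgLib.FusionExamples.isNormal_le_core h).trans hZdef.ge))
  have h1 := fix_of_normalized hS hF hsame hz hzc hfix hRS hSR hRn
    (P := R) (φ := ψ₁) ⟨hψR, by rw [hSR]; exact hRS, by rw [hSR]; exact apply_mem hψR,
      ψ₁.comp (Subgroup.inclusion (sup_le le_rfl le_rfl)), restrict_mem hψR _, fun x => rfl,
      map_subgroupOf_eq (F.injective_of_mem (restrict_mem hψR _)) le_sup_left fun w _ => hmap _⟩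
    (Subgroup.mem_sup_left hyZ)
  have e : ψ₁ ⟨z ^ p, Subgroup.mem_sup_left hyZ⟩ = ((α ⟨z ^ p, hyZ⟩ : Z) : Ω) :=
    hψx (z ^ p) hyZ (hRext (Subgroup.mem_sup_left hyZ))
  rw [e, hαx] at h1
  exact h1

/-- The case `y ∉ O_p(F)`. -/
theorem fix_of_not_mem_core (hW : IsNatural p W)
    (hWZ : ∀ (Q : Type u) [Group Q] [Finite Q], IsPGroup p Q → Subgroup.center Q ≤ W Q)
    (hS : IsPGroup p S) {F : FusionSystem S} (hF : F.IsSaturated p)
    (hsmall : ∀ (T : Subgroup Ω) [Finite T], IsPGroup p T → ∀ E : FusionSystem T,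
      E.IsSaturated p → Nat.card T < Nat.card S → Holds p W E)
    (hsame : ∀ E : FusionSystem S, E.IsSaturated p → (ControlTransfer.homSet E).ncard < (ControlTransfer.homSet F).ncard →
      Holds p W E) {z : Ω} (hz : z ∈ S) (hzc : ∀ x ∈ S, x * z = z * x)
    (hfix : FixW W F (z ^ p)) (hy : z ^ p ∉ F.core) : Fix F (z ^ p) := by
  intro P φ hφ hP
  refine Ext.fix (closed_induction_centric hS hF (closed_ext F (z ^ p))
    (fun Q hQ hQc big α hα => ?_) hφ) hP
  have hQS := hQ.1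
  haveI := finite_of_le hQS
  have hm := (mem_autGroup_iff F hQS).mp hα
  have hzQ : z ^ p ∈ Q :=
    hQc.2 Q (isConj_refl F hQS) ⟨pow_mem hz p, fun x hx =>
      ((show Commute x z from hzc x (hQS hx)).pow_right p).eq⟩
  suffices hmain : ((α ⟨z ^ p, hzQ⟩ : Q) : Ω) = z ^ p by
    exact ⟨_, restrict_mem hm (sup_le le_rfl (Subgroup.zpowers_le.2 hzQ)), fun x => rfl, hmain⟩
  rcases eq_or_ne Q S with rfl | hne
  · exact hfix _ (restrict_mem hm (wof_le Q))
      (fun x => apply_mem_wof hW hS hm (Subgroup.inclusion (wof_le Q) x) x.2)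
      (pow_mem (mem_wof hWZ hS hz hzc) p)
  have hQN : Q < normalizerIn S Q := by
    refine lt_of_le_of_ne (le_normalizerIn hQS) fun h => ?_
    obtain ⟨g, hg, hgN, hgQ⟩ :=
      CfsgLib.FusionSub.exists_mem_normalizer_not_mem hS (lt_of_le_of_ne hQS hne) le_rfl
    exact hgQ (h.ge ⟨hg, hgN⟩)
  haveI := finite_of_le (normalizerIn_le S Q)
  have hQlt : Nat.card Q < Nat.card (normalizerIn S Q) := card_lt_card (normalizerIn_le S Q) hQN
  have claim : ∀ (k : ℕ) (U : Subgroup Ω), Nat.card S - Nat.card (normalizerIn S U) = k →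
      F.IsFullyNormalized U → ∀ hyU : z ^ p ∈ U, Nat.card Q < Nat.card (normalizerIn S U) →
      ∀ χ : U →* Ω, χ ∈ F.Hom U → (∀ x, χ x ∈ U) → χ ⟨z ^ p, hyU⟩ = z ^ p := by
    intro k
    induction k using Nat.strong_induction_on with
    | _ k ih =>
    intro U hk hU hyU hlt χ hχ hχU
    have hUS := hU.1
    obtain ⟨E, hE⟩ := exists_normalizerSystem F hUS
    have hTS : normalizerIn S U ≤ S := normalizerIn_le S U
    haveI := finite_of_le hTS
    haveI := finite_of_le hUS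
    have hUT : U ≤ normalizerIn S U := le_normalizerIn hUS
    have hnorm : χ ∈ F.normalizerHom U U :=
      ⟨hχ, hUT, fun x => hUT (hχU x), χ.comp (Subgroup.inclusion (sup_le le_rfl le_rfl)),
        restrict_mem hχ _, fun x => rfl,
        map_subgroupOf_eq (F.injective_of_mem (restrict_mem hχ _)) le_sup_left fun w _ => hχU _⟩
    rcases eq_or_ne (normalizerIn S U) S with hTeq | hTne
    · exact fix_of_normalized hS hF hsame hz hzc hfix hUS hTeq
        (fun hn => hy (CfsgLib.FusionExamples.isNormal_le_core hn hyU)) hnorm hyU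
    have hTlt : normalizerIn S U < S := lt_of_le_of_ne hTS hTne
    have hTp := isPGroup_of_le hS hTS
    have hEs := Cfsg.Agent.S5098.result p hS F hF U hU E hE
    have hzT : z ∈ normalizerIn S U :=
      centralizerIn_le_normalizerIn S U ⟨hz, fun x hx => hzc x (hUS hx)⟩
    refine hsmall _ hTp E hEs (card_lt_card le_rfl hTlt) z hzT (fun x hx => hzc x (hTS hx)) ?_
      U χ (by rw [hE]; exact hnorm) hyU
    intro η hη hηW hyW
    obtain ⟨U₂, hU₂⟩ : ∃ U₂, U₂ = wof W (normalizerIn S U) := ⟨_, rfl⟩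
    have hηF : η ∈ F.Hom (wof W (normalizerIn S U)) := by
      rw [hE] at hη
      exact hη.1
    have hU₂T := wof_le (W := W) (normalizerIn S U)
    have hTN : normalizerIn S U ≤ normalizerIn S (wof W (normalizerIn S U)) := fun t ht =>
      ⟨hTS ht, normalizer_le_normalizer_wof hW hTp (Subgroup.le_normalizer ht)⟩
    have hgrow : Nat.card (normalizerIn S U) <
        Nat.card (normalizerIn S (wof W (normalizerIn S U))) := by
      obtain ⟨g, hg, hgN, hgT⟩ := CfsgLib.FusionSub.exists_mem_normalizer_not_mem hS hTlt le_rfl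
      exact card_lt_card (normalizerIn_le S _) (lt_of_le_of_ne hTN fun h =>
        hgT (h.ge ⟨hg, normalizer_le_normalizer_wof hW hTp hgN⟩))
    obtain ⟨R₀, hconj, hR₀⟩ := exists_isFullyNormalized F (hU₂T.trans hTS)
    obtain ⟨θ, hθ, -, hθU⟩ := exists_hom_normalizerIn_of_fullyNormalized hS hF hR₀ hconj
    have hθy : θ ⟨z ^ p, hTN (hU₂T hyW)⟩ = z ^ p :=
      Ext.fix (big _ θ hθ (lt_trans hlt hgrow)) _
    have hR₀le := hR₀.2 _ (CfsgLib.Alperin.IsConj.symm hconj)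
    have hθ₁ := restrict_mem hθ (hU₂T.trans hTN)
    have hr : (θ.comp (Subgroup.inclusion (hU₂T.trans hTN))).range = R₀ := by
      rw [range_comp_inclusion]
      exact hθU
    obtain ⟨ι, hι, hιr, hι1, -⟩ := exists_inverse hθ₁ hr
    have hιW : ∀ v : R₀, ι v ∈ wof W (normalizerIn S U) := fun v => hιr.le ⟨v, rfl⟩
    set χ' : R₀ →* Ω := θ.comp ((η.comp (ι.codRestrict _ hιW)).codRestrict
      (normalizerIn S (wof W (normalizerIn S U))) fun v => hTN (hU₂T (hηW _)))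
    have hχ' : χ' ∈ F.Hom R₀ :=
      F.comp_mem (F.comp_mem hι hηF hιW) hθ fun v => hTN (hU₂T (hηW _))
    have hyR₀ : z ^ p ∈ R₀ := hr.le ⟨⟨z ^ p, hyW⟩, hθy⟩
    have h2 := ih _ (by
      have := Subgroup.card_le_of_le (normalizerIn_le S R₀)
      omega) R₀ rfl hR₀ hyR₀ (by omega) χ' hχ' (fun v => hθU.le ⟨_, hηW _, rfl⟩)
    have hι2 : ι ⟨z ^ p, hyR₀⟩ = z ^ p := by
      have h := hι1 ⟨z ^ p, hyW⟩ (hr.le ⟨_, rfl⟩)
      refine Eq.trans ?_ h
      exact congrArg ι (Subtype.ext hθy.symm)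
    have h3 : θ ⟨η ⟨z ^ p, hyW⟩, hTN (hU₂T (hηW _))⟩ = θ ⟨z ^ p, hTN (hU₂T hyW)⟩ := by
      rw [hθy]
      refine Eq.trans (congrArg θ (Subtype.ext ?_)) h2
      exact congrArg η (Subtype.ext hι2.symm)
    exact congrArg Subtype.val (F.injective_of_mem hθ h3)
  exact claim _ Q rfl hQ hzQ hQlt _ hm fun x => (α x).2

/-- **The functor controls `p`-th powers of the centre.** -/
theorem fix_of_fixW (hW : IsNatural p W) (hq : QuadraticCond p W)
    (hWZ : ∀ (Q : Type u) [Group Q] [Finite Q], IsPGroup p Q → Subgroup.center Q ≤ W Q)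
    (hS : IsPGroup p S) {F : FusionSystem S} (hF : F.IsSaturated p) : Holds p W F := by
  suffices h : ∀ (n m : ℕ) (T : Subgroup Ω) [Finite T], IsPGroup p T →
      ∀ E : FusionSystem T, E.IsSaturated p → Nat.card T = n → (ControlTransfer.homSet E).ncard = m →
        Holds p W E from h _ _ S hS F hF rfl rfl
  intro n
  induction n using Nat.strong_induction_on with
  | _ n ihn =>
    intro m
    induction m using Nat.strong_induction_on with
    | _ m ihm =>
      intro T _ hT E hE hn hm z hz hzc hfix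
      by_cases hy : z ^ p ∈ E.core
      · exact fix_of_mem_core hW hq hWZ hT hE (fun E' hE' hlt => ihm _ (hm ▸ hlt) T hT E' hE' hn rfl)
          hz hzc hfix rfl hy
      · exact fix_of_not_mem_core hW hWZ hT hE
          (fun T' _ hT' E' hE' hlt => ihn _ (hn ▸ hlt) _ T' hT' E' hE' rfl rfl)
          (fun E' hE' hlt => ihm _ (hm ▸ hlt) T hT E' hE' hn rfl) hz hzc hfix hy

end CfsgLib.FusionBasics.CenterPower
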