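import Cfsg.Agent.Lib.FusionBasics.CenterPower.Quadratic
import Cfsg.Agent.Lib.FusionBasics.ControlTransfer.Basic
import Cfsg.Agent.Lib.Cores.PCore
import Cfsg.Agent.Lib.CoprimeAction.Basic

/-!
A functor `W` with a quadratic element condition: in a group of characteristic `p` the `p`-th
powers of central elements of a Sylow subgroup that are central in `N(W(P))` are central.
-/

set_option autoImplicit false
set_option linter.style.haveILetI false
set_option linter.unusedSectionVars false

namespace CfsgLib.FusionBasics.CenterPower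

open Cfsg CfsgLib.FusionBasics.ControlTransfer
open scoped commutatorElement Pointwise

universe u

variable {p : ℕ} [Fact p.Prime] {W : ∀ (Q : Type u) [Group Q], Subgroup Q}

/-- The condition on the functor. -/
def QuadraticCond (p : ℕ) (W : ∀ (Q : Type u) [Group Q], Subgroup Q) : Prop :=
  ∀ (G : Type u) [Group G] [Finite G] (P : Sylow p G),
    ¬ (((W ↥(P : Subgroup G)).map (P : Subgroup G).subtype : Subgroup G)).Normal →
    ∃ g : G, g ∈ (P : Subgroup G) ∧ g ∉ Cfsg.pCore p G ∧
      ⁅⁅Subgroup.center ↥(Cfsg.pCore p G) |>.map (Cfsg.pCore p G).subtype,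
        Subgroup.zpowers g⁆, Subgroup.zpowers g⁆ = ⊥

theorem group_fixed_aux (hW : IsNatural p W) (hq : QuadraticCond p W) :
    ∀ (n k : ℕ) (G : Type u) [Group G] [Finite G], Nat.card G = n → ∀ P : Sylow p G,
      Subgroup.centralizer ((pCore p G : Subgroup G) : Set G) ≤ pCore p G →
      ∀ z ∈ (P : Subgroup G), (∀ x ∈ (P : Subgroup G), x * z = z * x) → z ^ p ^ k = 1 →
        Subgroup.normalizer (wof W (P : Subgroup G) : Set G) ≤
          Subgroup.centralizer {z ^ p} →
        ∀ g : G, g ∈ Subgroup.centralizer {z ^ p} := by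
  classical
  intro n
  induction n using Nat.strong_induction_on with
  | _ n ihn =>
  intro k
  induction k with
  | zero =>
    intro G _ _ _ P _ z _ _ hz1 _ g
    rw [pow_zero, pow_one] at hz1
    simp [hz1, Subgroup.mem_centralizer_iff]
  | succ k ihk =>
    intro G _ _ hn P hC z hzP hzc hzk hN
    set K := Subgroup.centralizer ({z ^ p} : Set G) with hK
    by_cases hnorm : (wof W (P : Subgroup G)).Normal
    · intro g
      exact hN (by rw [Subgroup.normalizer_eq_top_iff.2 hnorm]; trivial)
    -- proper subgroups containing `P`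
    have hproper : ∀ M : Subgroup G, (P : Subgroup G) ≤ M → M ≠ ⊤ → M ≤ K := by
      intro M hPM hM
      have hlt : Nat.card M < n := hn ▸ lt_of_le_of_ne (Subgroup.card_le_card_group M)
        fun e => hM (Subgroup.eq_top_of_card_eq M e)
      have hQM : pCore p G ≤ M := (Cores.pCore_le_sylow P).trans hPM
      haveI : ((pCore p G).subgroupOf M).Normal := ⟨fun x hx g =>
        (Subgroup.Normal.conj_mem inferInstance (x : G) hx (g : G) :
          (g : G) * x * (g : G)⁻¹ ∈ pCore p G)⟩
      have hQM' : (pCore p G).subgroupOf M ≤ pCore p M :=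
        Cores.le_pCore (Cores.isPGroup_pCore p G).comap_subtype
      have hCM : Subgroup.centralizer ((pCore p M : Subgroup M) : Set M) ≤ pCore p M := by
        intro x hx
        refine hQM' (hC (Subgroup.mem_centralizer_iff.2 fun y hy => ?_))
        exact congrArg Subtype.val (Subgroup.mem_centralizer_iff.1 hx ⟨y, hQM hy⟩ (hQM' hy))
      have hWM : (wof W (P.subtype hPM : Subgroup M)).map M.subtype = wof W (P : Subgroup G) := by
        rw [wof, Subgroup.map_map]
        refine (wof_map hW (P.subtype hPM).2 _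
          (M.subtype_injective.comp (Subgroup.subtype_injective _)) ?_).symm
        rw [MonoidHom.range_comp, Subgroup.range_subtype, Sylow.coe_subtype,
          Subgroup.map_subgroupOf_eq_of_le hPM]
      have hcoe : ∀ (m : M), m ∈ Subgroup.centralizer ({(⟨z, hPM hzP⟩ : M) ^ p} : Set M) ↔
          (m : G) ∈ K := by
        intro m
        simp [hK, Subgroup.mem_centralizer_iff, Subtype.ext_iff]
        exact ⟨fun h => h _ (pow_mem (hPM hzP) p) rfl, fun h a _ e => e ▸ h⟩
      intro m hm
      refine (hcoe ⟨m, hm⟩).1 (ihn _ hlt (k + 1) M rfl (P.subtype hPM) hCM ⟨z, hPM hzP⟩ ?_ ?_ ?_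
        (fun y hy => (hcoe y).2 (hN ?_)) _)
      · rw [Sylow.coe_subtype]
        exact hzP
      · rw [Sylow.coe_subtype]
        exact fun x hx => Subtype.ext (hzc (x : G) hx)
      · exact Subtype.ext (by simpa using hzk)
      · rw [← hWM]
        exact Subgroup.le_normalizer_map M.subtype ⟨y, hy, rfl⟩
    -- the `p`-th power
    have hw : ∀ g : G, g ∈ Subgroup.centralizer ({(z ^ p) ^ p} : Set G) := by
      refine ihk G hn P hC (z ^ p) (pow_mem hzP p)
        (fun x hx => ((show Commute x z from hzc x hx).pow_right p).eq)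
        (by rwa [← pow_mul, ← pow_succ']) fun g hg => ?_
      refine Subgroup.mem_centralizer_iff.2 fun y hy => ?_
      obtain rfl := hy
      exact (((show Commute (z ^ p) g from
        Subgroup.mem_centralizer_iff.1 (hN hg) (z ^ p) rfl)).pow_left p).eq
    obtain ⟨g₀, hg₀P, hg₀Q, hquad₀⟩ := hq G P hnorm
    set V : Subgroup G := (Subgroup.center ↥(pCore p G)).map (pCore p G).subtype with hV
    haveI hVn : V.Normal := Cores.normal_map_subtype _ _
    have hVc : ∀ a b : V, a * b = b * a := by
      rintro ⟨_, a, ha, rfl⟩ ⟨_, b, -, rfl⟩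
      exact Subtype.ext (congrArg Subtype.val (Subgroup.mem_center_iff.1 ha b).symm :)
    letI : CommGroup V := { (inferInstance : Group V) with mul_comm := hVc }
    let ρ : G →* MulAut V := MulAut.conjNormal
    have hρ : ∀ (g : G) (v : V), ((ρ g v : V) : G) = g * v * g⁻¹ := fun g v =>
      MulAut.conjNormal_apply g v
    set T : Set G := {d | d ∈ (P : Subgroup G) ∧ ∀ v : V, ρ d (ρ d v / v) = ρ d v / v} with hT
    have hTconj : ∀ (x d : G), d ∈ T → x * d * x⁻¹ ∈ (P : Subgroup G) → x * d * x⁻¹ ∈ T := by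
      intro x d hd hxd
      refine ⟨hxd, fun v => ?_⟩
      have e : ∀ w : V, ρ (x * d * x⁻¹) w = ρ x (ρ d (ρ x⁻¹ w)) := fun w => by simp
      have h := congrArg (ρ x) (hd.2 (ρ x⁻¹ v))
      simp only [map_div, e] at h ⊢
      simpa using h
    have hg₀T : g₀ ∈ T := by
      refine ⟨hg₀P, fun v => Subtype.ext ?_⟩
      have hc := Subgroup.commutator_mem_commutator (Subgroup.commutator_mem_commutator v.2
        (Subgroup.mem_zpowers g₀)) (Subgroup.mem_zpowers g₀)
      rw [hquad₀, Subgroup.mem_bot, commutatorElement_eq_one_iff_mul_comm] at hc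
      have e : ((ρ g₀ v / v : V) : G) = (⁅(v : G), g₀⁆)⁻¹ := by
        simp [div_eq_mul_inv, hρ, commutatorElement_def, mul_assoc]
      rw [hρ, e, ((show Commute ⁅(v : G), g₀⁆ g₀ from hc).inv_left).symm.eq, mul_inv_cancel_right]
    set A := Subgroup.closure T with hA
    have hAP : A ≤ (P : Subgroup G) := (Subgroup.closure_le _).2 fun d hd => hd.1
    have hnormA : ∀ x : G, (∀ d ∈ T, x * d * x⁻¹ ∈ (P : Subgroup G)) →
        x ∈ Subgroup.normalizer (A : Set G) := by
      intro x hx
      have hle : A.map (MulAut.conj x).toMonoidHom ≤ A := by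
        rw [hA, MonoidHom.map_closure]
        refine Subgroup.closure_mono ?_
        rintro _ ⟨d, hd, rfl⟩
        exact hTconj x d hd (hx d hd)
      refine CoprimeAction.conj_smul_eq_self.1 (Subgroup.eq_of_le_of_card_ge hle ?_)
      exact (Subgroup.card_map_of_injective (MulAut.conj x).injective).ge
    have hNA : Subgroup.normalizer (A : Set G) ≤ K := by
      refine hproper _ (fun s hs => hnormA s fun d hd =>
        mul_mem (mul_mem hs hd.1) (inv_mem hs)) fun htop => hg₀Q ?_
      haveI : A.Normal := Subgroup.normalizer_eq_top_iff.1 htop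
      exact Cores.le_pCore (P.2.to_le hAP) (Subgroup.subset_closure hg₀T)
    have hzQ : z ∈ pCore p G := hC (Subgroup.mem_centralizer_iff.2 fun x hx =>
      hzc x (Cores.pCore_le_sylow P hx))
    have hzV : z ∈ V := ⟨⟨z, hzQ⟩, Subgroup.mem_center_iff.2 fun x =>
      Subtype.ext (hzc (x : G) (Cores.pCore_le_sylow P x.2)), rfl⟩
    have hfixed := fixed_pow_of_quadratic ρ P T (fun d hd => hd.1) (fun d hd => hd.2) ⟨z, hzV⟩
      (fun r hr => Subtype.ext (by rw [hρ]; simp [hzc r hr]))
      (fun g => Subtype.ext (by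
        have h : (z ^ p) ^ p * g = g * (z ^ p) ^ p :=
          Subgroup.mem_centralizer_iff.1 (hw g) _ rfl
        rw [hρ, SubgroupClass.coe_pow, pow_mul, ← h, mul_inv_cancel_right])) ?_
    · intro g
      refine Subgroup.mem_centralizer_iff.2 fun y hy => ?_
      obtain rfl := hy
      have h := congrArg Subtype.val (hfixed g)
      rw [hρ, SubgroupClass.coe_pow] at h
      exact (mul_inv_eq_iff_eq_mul.1 h).symm
    intro g hg
    -- `g⁻¹ T g` centralizes `z`
    set H := Subgroup.centralizer ({z} : Set G) with hH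
    have hPH : (P : Subgroup G) ≤ H := fun x hx => Subgroup.mem_centralizer_iff.2 fun y hy => by
      obtain rfl := hy
      exact (hzc x hx).symm
    have hle : A.map (MulAut.conj g⁻¹).toMonoidHom ≤ H := by
      rw [hA, MonoidHom.map_closure, Subgroup.closure_le]
      rintro _ ⟨d, hd, rfl⟩
      refine Subgroup.mem_centralizer_iff.2 fun y hy => ?_
      obtain rfl := hy
      have h := congrArg Subtype.val (hg d hd)
      rw [hρ, hρ] at h
      show y * (g⁻¹ * d * g⁻¹⁻¹) = g⁻¹ * d * g⁻¹⁻¹ * y
      calc y * (g⁻¹ * d * g⁻¹⁻¹) = g⁻¹ * ((g * y * g⁻¹) * d) * g := by group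
        _ = g⁻¹ * ((d * (g * y * g⁻¹) * d⁻¹) * d) * g := by rw [h]
        _ = g⁻¹ * d * g⁻¹⁻¹ * y := by group
    obtain ⟨U, hU⟩ := ((P.2.to_le hAP).map (MulAut.conj g⁻¹).toMonoidHom).comap_subtype
      (K := H) |>.exists_le_sylow
    obtain ⟨h, hh⟩ := MulAction.exists_smul_eq H U (P.subtype hPH)
    have hmem : (h : G) * g⁻¹ ∈ Subgroup.normalizer (A : Set G) := by
      refine hnormA _ fun d hd => ?_
      have hd' : (MulAut.conj g⁻¹) d ∈ A.map (MulAut.conj g⁻¹).toMonoidHom :=
        ⟨d, Subgroup.subset_closure hd, rfl⟩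
      have h1 : h * ⟨(MulAut.conj g⁻¹) d, hle hd'⟩ * h⁻¹ ∈ (P.subtype hPH : Subgroup H) := by
        rw [← hh, Sylow.coe_subgroup_smul]
        exact ⟨_, hU hd', rfl⟩
      rw [Sylow.coe_subtype] at h1
      have h2 : (h : G) * (g⁻¹ * d * g⁻¹⁻¹) * (h : G)⁻¹ ∈ (P : Subgroup G) := h1
      convert h2 using 1
      group
    have hhK : (h : G) ∈ K := Subgroup.mem_centralizer_iff.2 fun y hy => by
      obtain rfl := hy
      exact ((show Commute z (h : G) from
        Subgroup.mem_centralizer_iff.1 h.2 z rfl).pow_left p).eq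
    have hgK : g ∈ K := by
      have h3 := K.mul_mem (K.inv_mem (hNA hmem)) hhK
      simpa [mul_assoc] using h3
    refine Subtype.ext ?_
    have h4 : z ^ p * g = g * z ^ p := Subgroup.mem_centralizer_iff.1 hgK (z ^ p) rfl
    rw [SubgroupClass.coe_pow, hρ, SubgroupClass.coe_pow, conj_pow, ← h4, mul_inv_cancel_right]

/-- **The group theorem.** -/
theorem group_fixed (hW : IsNatural p W) (hq : QuadraticCond p W) {G : Type u} [Group G]
    [Finite G] (P : Sylow p G)
    (hC : Subgroup.centralizer ((pCore p G : Subgroup G) : Set G) ≤ pCore p G) {z : G}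
    (hzP : z ∈ (P : Subgroup G)) (hzc : ∀ x ∈ (P : Subgroup G), x * z = z * x)
    (hN : Subgroup.normalizer (wof W (P : Subgroup G) : Set G) ≤ Subgroup.centralizer {z ^ p})
    (g : G) : g * z ^ p = z ^ p * g := by
  obtain ⟨k, hk⟩ := P.2 ⟨z, hzP⟩
  exact (Subgroup.mem_centralizer_iff.1 (group_fixed_aux hW hq _ k G rfl P hC z hzP hzc
    (congrArg Subtype.val hk) hN g) (z ^ p) rfl).symm

end CfsgLib.FusionBasics.CenterPower
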