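import Mathlib

/-!
Glauberman's trace argument: if `z` is fixed by a Sylow subgroup, `z ^ p ^ 2` by the whole group,
and a quadratically generated `p`-subgroup fixes only points of the orbit of `z` lying over
`z ^ p`, then `z ^ p` is fixed by the whole group.
-/

set_option autoImplicit false
set_option linter.style.haveILetI false
set_option linter.unusedSectionVars false

namespace CfsgLib.FusionBasics.CenterPower

variable {G D : Type*} [Group G] [CommGroup D] {p : ℕ} [Fact p.Prime] (ρ : G →* MulAut D)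

/-- The points fixed by the whole group. -/
def fixedBy : Subgroup D where
  carrier := {x | ∀ g : G, ρ g x = x}
  one_mem' := fun g => map_one _
  mul_mem' := fun hx hy g => by rw [map_mul, hx g, hy g]
  inv_mem' := fun hx g => by rw [map_inv, hx g]

theorem mem_fixedBy {x : D} : x ∈ fixedBy ρ ↔ ∀ g : G, ρ g x = x := Iff.rfl

/-- The product over the translates of a block by the powers of a quadratic element. -/
theorem pow_prod_range_of_quadratic {d : G} {s : D} (hq : ρ d (ρ d s / s) = ρ d s / s) {n : ℕ}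
    (hn : ρ (d ^ n) s = s) {m : ℕ} (hm : n ∣ (∑ i ∈ Finset.range n, i) * m) :
    (∏ i ∈ Finset.range n, ρ (d ^ i) s) ^ m = s ^ (n * m) := by
  set t := ρ d s / s with ht
  have hstep : ∀ i : ℕ, ρ (d ^ i) s = t ^ i * s := by
    intro i
    induction i with
    | zero => simp
    | succ i ih =>
      rw [pow_succ', map_mul, MulAut.mul_apply, ih, map_mul, map_pow, hq,
        show ρ d s = t * s from (div_mul_cancel _ _).symm, ← mul_assoc, ← pow_succ]
  have htn : t ^ n = 1 := by simpa using (hstep n).symm.trans hn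
  obtain ⟨c, hc⟩ := hm
  rw [Finset.prod_congr rfl fun i _ => hstep i, Finset.prod_mul_distrib, Finset.prod_const,
    Finset.card_range, Finset.prod_pow_eq_pow_sum, mul_pow, ← pow_mul, hc, pow_mul, htn, one_pow,
    one_mul, ← pow_mul]

theorem dvd_sum_range_mul {n k : ℕ} (hk : n = p ^ k) :
    n ∣ (∑ i ∈ Finset.range n, i) * p := by
  rcases eq_or_ne p 2 with hp2 | hp2
  · exact ⟨n - 1, by rw [hp2, Finset.sum_range_id_mul_two]⟩
  · refine Dvd.dvd.mul_right ?_ p
    have hc : n.Coprime 2 := hk ▸ ((Nat.coprime_primes Fact.out Nat.prime_two).2 hp2).pow_left k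
    refine hc.dvd_of_dvd_mul_right ?_
    rw [Finset.sum_range_id_mul_two]
    exact dvd_mul_right _ _

variable [Finite G]

/-- A non-trivial orbit of a quadratically generated `p`-subgroup. -/
theorem orbit_step {A : Subgroup G} (hA : IsPGroup p A) {T : Set G}
    (hT : Subgroup.closure T = A) (hquad : ∀ d ∈ T, ∀ v : D, ρ d (ρ d v / v) = ρ d v / v)
    {u : D} (hu : ∃ a ∈ A, ρ a u ≠ u) {O : Finset D} (hO : ∀ x, x ∈ O ↔ ∃ a ∈ A, ρ a u = x)
    (hw : ∀ x ∈ O, x ^ (p * p) ∈ fixedBy ρ) :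
    p ∣ O.card ∧ (∏ x ∈ O, x) ^ p ∈ fixedBy ρ := by
  classical
  haveI := hA.isNilpotent
  let B : Subgroup A :=
    { carrier := {a | ρ a u = u}
      one_mem' := by simp
      mul_mem' := fun {x y} hx hy => by
        show ρ ((x : G) * y) u = u
        rw [map_mul, MulAut.mul_apply, show ρ (y : G) u = u from hy, show ρ (x : G) u = u from hx]
      inv_mem' := fun {x} hx => by
        show ρ ((x : G)⁻¹) u = u
        conv_lhs => rw [← show ρ (x : G) u = u from hx]
        rw [map_inv]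
        exact (ρ (x : G)).symm_apply_apply u }
  obtain ⟨a₀, ha₀, hau⟩ := hu
  obtain ⟨M, hM, hBM⟩ : ∃ M : Subgroup A, IsCoatom M ∧ B ≤ M := by
    rcases eq_top_or_exists_le_coatom B with h | h
    · exact absurd (show (⟨a₀, ha₀⟩ : A) ∈ B from h ▸ Subgroup.mem_top _) hau
    · exact h
  haveI : M.Normal := Subgroup.NormalizerCondition.normal_of_coatom M Group.normalizerCondition_of_isNilpotent hM
  obtain ⟨d, hdT, hdM⟩ : ∃ d : A, (d : G) ∈ T ∧ d ∉ M := by
    by_contra hc
    push Not at hc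
    refine hM.1 (eq_top_iff.2 fun a _ => ?_)
    have hle : A ≤ M.map A.subtype := by
      conv_lhs => rw [← hT]
      refine (Subgroup.closure_le _).2 fun t ht => ?_
      exact ⟨⟨t, hT ▸ Subgroup.subset_closure ht⟩, hc _ ht, rfl⟩
    obtain ⟨b, hb, hba⟩ := hle a.2
    exact (Subtype.ext hba : b = a) ▸ hb
  set π := QuotientGroup.mk' M
  set n := orderOf (π d) with hn
  have hnpos : 0 < n := orderOf_pos _
  obtain ⟨k, hk⟩ : ∃ k, n = p ^ k := by
    obtain ⟨k, hk⟩ := (hA.to_quotient M) (π d)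
    obtain ⟨j, -, hj⟩ := (Nat.dvd_prime_pow Fact.out).1 (orderOf_dvd_of_pow_eq_one hk)
    exact ⟨j, hj⟩
  have hk0 : k ≠ 0 := by
    rintro rfl
    rw [pow_zero, hn, orderOf_eq_one_iff] at hk
    exact hdM ((QuotientGroup.eq_one_iff d).1 hk)
  haveI := Fintype.ofFinite M
  set Bl : Finset D := Finset.univ.image fun m : M => ρ ((m : A) : G) u with hBl
  have hBlmem : ∀ v, v ∈ Bl ↔ ∃ m ∈ M, ρ (m : G) u = v := by
    intro v
    simp [hBl, Subtype.exists]
  set s := ∏ v ∈ Bl, v with hs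
  have hdn : d ^ n ∈ M := (QuotientGroup.eq_one_iff _).1 (by
    show π (d ^ n) = 1
    rw [map_pow, hn, pow_orderOf_eq_one])
  have hMs : ∀ m ∈ M, ρ (m : G) s = s := by
    intro m hm
    rw [hs, map_prod]
    refine Finset.prod_bij (fun v _ => ρ (m : G) v) (fun v hv => ?_)
      (fun x _ y _ h => (ρ (m : G)).injective h) (fun v hv => ?_) (fun v _ => rfl)
    · obtain ⟨m', hm', rfl⟩ := (hBlmem v).1 hv
      exact (hBlmem _).2 ⟨m * m', M.mul_mem hm hm', by simp⟩
    · obtain ⟨m', hm', rfl⟩ := (hBlmem v).1 hv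
      refine ⟨ρ ((m⁻¹ * m' : A) : G) u, (hBlmem _).2 ⟨_, M.mul_mem (M.inv_mem hm) hm', rfl⟩, ?_⟩
      rw [← MulAut.mul_apply, ← map_mul]
      simp
  set f : ℕ × D → D := fun iv => ρ ((d : G) ^ iv.1) iv.2 with hf
  have himg : (Finset.range n ×ˢ Bl).image f = O := by
    ext x
    simp only [Finset.mem_image, Finset.mem_product, Finset.mem_range, hO]
    constructor
    · rintro ⟨⟨i, v⟩, ⟨-, hv⟩, rfl⟩
      obtain ⟨m, -, rfl⟩ := (hBlmem v).1 hv
      exact ⟨(d : G) ^ i * m, A.mul_mem (A.pow_mem d.2 i) (m : A).2, by simp [hf]⟩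
    · rintro ⟨a, ha, rfl⟩
      have htop : M ⊔ Subgroup.zpowers d = ⊤ := hM.2 _ (lt_of_le_of_ne le_sup_left fun h =>
        hdM (h.ge (Subgroup.mem_sup_right (Subgroup.mem_zpowers d))))
      have hmem : (⟨a, ha⟩ : A) ∈ M ⊔ Subgroup.zpowers d := htop ▸ Subgroup.mem_top _
      obtain ⟨m, hm, c, hc, hmc⟩ := Subgroup.mem_sup_of_normal_left.1 hmem
      obtain ⟨j, hj⟩ := (isOfFinOrder_of_finite d).mem_powers_iff_mem_zpowers.2 hc
      refine ⟨(j % n, ρ ((((d ^ (j % n))⁻¹ * ⟨a, ha⟩ : A) : A) : G) u),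
        ⟨Nat.mod_lt _ hnpos, (hBlmem _).2 ⟨_, ?_, rfl⟩⟩, ?_⟩
      · refine (QuotientGroup.eq_one_iff _).1 ?_
        show π ((d ^ (j % n))⁻¹ * ⟨a, ha⟩) = 1
        rw [← hmc, map_mul, map_mul, map_inv, show π m = 1 from (QuotientGroup.eq_one_iff m).2 hm,
          ← hj, map_pow, map_pow, hn, pow_mod_orderOf, one_mul, inv_mul_cancel]
      · simp [hf]
  have hinj : Set.InjOn f ((Finset.range n ×ˢ Bl : Finset (ℕ × D)) : Set (ℕ × D)) := by
    rintro ⟨i, v⟩ hi ⟨j, w⟩ hj h
    simp only [Finset.mem_coe, Finset.mem_product, Finset.mem_range] at hi hj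
    obtain ⟨m, hm, rfl⟩ := (hBlmem v).1 hi.2
    obtain ⟨m', hm', rfl⟩ := (hBlmem w).1 hj.2
    have hB : (d ^ j * m')⁻¹ * (d ^ i * m) ∈ M := hBM (by
      have h' : ρ ((d ^ i * m : A) : G) u = ρ ((d ^ j * m' : A) : G) u := by simpa [hf] using h
      show ρ _ u = u
      rw [Subgroup.coe_mul, Subgroup.coe_inv, map_mul, MulAut.mul_apply, h', map_inv]
      exact (ρ _).symm_apply_apply u)
    have hij : i = j := by
      have h1 := (QuotientGroup.eq_one_iff _).2 hB
      change π ((d ^ j * m')⁻¹ * (d ^ i * m)) = 1 at h1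
      rw [map_mul, map_inv, map_mul, map_mul, show π m = 1 from (QuotientGroup.eq_one_iff m).2 hm,
        show π m' = 1 from (QuotientGroup.eq_one_iff m').2 hm', mul_one, mul_one, map_pow, map_pow,
        inv_mul_eq_one] at h1
      exact (pow_injOn_Iio_orderOf (hj.1 : j < orderOf (π d)) (hi.1 : i < orderOf (π d)) h1).symm
    subst hij
    exact Prod.ext rfl ((ρ ((d : G) ^ i)).injective h)
  refine ⟨?_, ?_⟩
  · rw [← himg, Finset.card_image_of_injOn hinj, Finset.card_product, Finset.card_range, hk]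
    exact Dvd.dvd.mul_right (dvd_pow_self p hk0) _
  · rw [← himg, Finset.prod_image hinj, Finset.prod_product]
    have he : (∏ i ∈ Finset.range n, ∏ v ∈ Bl, f (i, v)) =
        ∏ i ∈ Finset.range n, ρ ((d : G) ^ i) s :=
      Finset.prod_congr rfl fun i _ => (map_prod (ρ ((d : G) ^ i)) (fun v => v) Bl).symm
    rw [he]
    rw [pow_prod_range_of_quadratic ρ (hquad _ hdT s) (by
        have := hMs _ hdn
        simpa using this) (dvd_sum_range_mul hk)]
    obtain ⟨j, rfl⟩ : ∃ j, k = j + 1 := ⟨k - 1, by omega⟩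
    rw [hk, show p ^ (j + 1) * p = p * p * p ^ j by ring, pow_mul, hs, ← Finset.prod_pow]
    refine Subgroup.pow_mem _ (Subgroup.prod_mem _ fun v hv => hw v ?_) _
    obtain ⟨m, -, rfl⟩ := (hBlmem v).1 hv
    exact (hO _).2 ⟨m, (m : A).2, rfl⟩

/-- **Glauberman's trace argument.** -/
theorem fixed_pow_of_quadratic (R : Sylow p G) (T : Set G) (hTR : T ⊆ (R : Subgroup G))
    (hquad : ∀ d ∈ T, ∀ v : D, ρ d (ρ d v / v) = ρ d v / v) (z : D)
    (hR : ∀ r ∈ (R : Subgroup G), ρ r z = z) (hw : z ^ (p * p) ∈ fixedBy ρ)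
    (hfix : ∀ g : G, (∀ d ∈ T, ρ d (ρ g z) = ρ g z) → (ρ g z) ^ p = z ^ p) :
    z ^ p ∈ fixedBy ρ := by
  classical
  haveI := Fintype.ofFinite G
  set A := Subgroup.closure T with hA
  have hAp : IsPGroup p A := R.2.to_le ((Subgroup.closure_le _).2 hTR)
  set O : Finset D := Finset.univ.image fun g => ρ g z with hOdef
  have hOmem : ∀ x, x ∈ O ↔ ∃ g, ρ g z = x := fun x => by simp [hOdef]
  have hcard : ¬ p ∣ O.card := by
    letI := MulAction.compHom D ρ
    have horb : MulAction.orbit G z = (O : Set D) := by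
      ext x
      simp only [MulAction.mem_orbit_iff, Finset.mem_coe, hOmem]
      rfl
    have h1 : (MulAction.stabilizer G z).index = O.card := by
      rw [MulAction.index_stabilizer, horb, Set.ncard_coe_finset]
    rw [← h1]
    exact fun h => R.not_dvd_index (h.trans (Subgroup.index_dvd_of_le fun r hr =>
      MulAction.mem_stabilizer_iff.2 (show ρ r z = z from hR r hr)))
  have hOw : ∀ x ∈ O, x ^ (p * p) ∈ fixedBy ρ := by
    intro x hx
    obtain ⟨g, rfl⟩ := (hOmem x).1 hx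
    rw [← map_pow, hw g]
    exact hw
  have key : ∀ s : Finset D, s ⊆ O → (∀ a ∈ A, ∀ x ∈ s, ρ a x ∈ s) →
      (∀ x ∈ s, ∃ a ∈ A, ρ a x ≠ x) → p ∣ s.card ∧ (∏ x ∈ s, x) ^ p ∈ fixedBy ρ := by
    intro s
    induction s using Finset.strongInduction with
    | H s ih =>
      intro hsO hsA hsfix
      rcases s.eq_empty_or_nonempty with rfl | ⟨u, hu⟩
      · simp
      haveI := Fintype.ofFinite A
      set Ou : Finset D := Finset.univ.image fun a : A => ρ (a : G) u with hOu
      have hOumem : ∀ x, x ∈ Ou ↔ ∃ a ∈ A, ρ a u = x := fun x => by simp [hOu, Subtype.exists]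
      have hsub : Ou ⊆ s := fun x hx => by
        obtain ⟨a, ha, rfl⟩ := (hOumem x).1 hx
        exact hsA a ha u hu
      obtain ⟨h1, h2⟩ := orbit_step ρ hAp rfl hquad (hsfix u hu) hOumem
        fun x hx => hOw x (hsO (hsub hx))
      have hsA' : ∀ a ∈ A, ∀ x ∈ s \ Ou, ρ a x ∈ s \ Ou := by
        intro a ha x hx
        obtain ⟨hxs, hxO⟩ := Finset.mem_sdiff.1 hx
        refine Finset.mem_sdiff.2 ⟨hsA a ha x hxs, fun h => hxO ?_⟩
        obtain ⟨b, hb, hbx⟩ := (hOumem _).1 h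
        refine (hOumem x).2 ⟨a⁻¹ * b, A.mul_mem (A.inv_mem ha) hb, ?_⟩
        rw [map_mul, MulAut.mul_apply, hbx, map_inv]
        exact (ρ a).symm_apply_apply x
      obtain ⟨h3, h4⟩ := ih (s \ Ou)
        (Finset.sdiff_ssubset hsub ⟨u, (hOumem u).2 ⟨1, A.one_mem, by simp⟩⟩)
        (Finset.sdiff_subset.trans hsO) hsA'
        fun x hx => hsfix x (Finset.mem_sdiff.1 hx).1
      refine ⟨?_, ?_⟩
      · rw [← Finset.card_sdiff_add_card_eq_card hsub]
        exact dvd_add h3 h1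
      · rw [← Finset.prod_sdiff hsub, mul_pow]
        exact mul_mem h4 h2
  set F0 := O.filter fun x => ∀ d ∈ T, ρ d x = x with hF0
  set Mv := O.filter fun x => ¬ ∀ d ∈ T, ρ d x = x with hMv
  have hfixA : ∀ x, (∀ d ∈ T, ρ d x = x) → ∀ a ∈ A, ρ a x = x := by
    intro x hx a ha
    induction ha using Subgroup.closure_induction with
    | mem d hd => exact hx d hd
    | one => simp
    | mul a b _ _ iha ihb => rw [map_mul, MulAut.mul_apply, ihb, iha]
    | inv a _ iha =>
      conv_lhs => rw [← iha]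
      rw [map_inv]
      exact (ρ a).symm_apply_apply x
  obtain ⟨hdvd, hmv⟩ := key Mv (Finset.filter_subset _ _) (fun a ha x hx => by
      obtain ⟨hxO, hxm⟩ := Finset.mem_filter.1 hx
      obtain ⟨g, rfl⟩ := (hOmem x).1 hxO
      refine Finset.mem_filter.2 ⟨(hOmem _).2 ⟨a * g, by simp⟩, fun h => hxm ?_⟩
      have h' := hfixA _ h a⁻¹ (A.inv_mem ha)
      rw [map_inv] at h'
      rw [show ρ g z = ρ a (ρ g z) from ((ρ a).symm_apply_apply _).symm.trans h']
      exact h)
    (fun x hx => by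
      obtain ⟨-, hxm⟩ := Finset.mem_filter.1 hx
      push Not at hxm
      obtain ⟨d, hd, hne⟩ := hxm
      exact ⟨d, Subgroup.subset_closure hd, hne⟩)
  have htot : (∏ x ∈ O, x) ∈ fixedBy ρ := by
    intro g
    rw [map_prod]
    refine Finset.prod_bij (fun x _ => ρ g x) (fun x hx => ?_)
      (fun x _ y _ h => (ρ g).injective h) (fun x hx => ?_) (fun x _ => rfl)
    · obtain ⟨h, rfl⟩ := (hOmem x).1 hx
      exact (hOmem _).2 ⟨g * h, by simp⟩
    · obtain ⟨h, rfl⟩ := (hOmem x).1 hx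
      exact ⟨ρ (g⁻¹ * h) z, (hOmem _).2 ⟨_, rfl⟩, by rw [← MulAut.mul_apply, ← map_mul]; simp⟩
  have hF0p : ∀ x ∈ F0, x ^ p = z ^ p := by
    intro x hx
    obtain ⟨hxO, hxf⟩ := Finset.mem_filter.1 hx
    obtain ⟨g, rfl⟩ := (hOmem x).1 hxO
    exact hfix g hxf
  have hc : (z ^ p) ^ F0.card ∈ fixedBy ρ := by
    have h1 : (∏ x ∈ O, x) ^ p = (z ^ p) ^ F0.card * (∏ x ∈ Mv, x) ^ p := by
      rw [← Finset.prod_filter_mul_prod_filter_not O (fun x => ∀ d ∈ T, ρ d x = x), mul_pow,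
        ← hF0, ← hMv, ← Finset.prod_pow F0, Finset.prod_congr rfl hF0p, Finset.prod_const]
    have h2 := mul_mem (Subgroup.pow_mem _ htot p) (inv_mem hmv)
    rwa [h1, mul_inv_cancel_right] at h2
  have hcop : F0.card.Coprime p := by
    refine ((Nat.Prime.coprime_iff_not_dvd Fact.out).2 fun h => hcard ?_).symm
    rw [← Finset.card_filter_add_card_filter_not (s := O) (fun x => ∀ d ∈ T, ρ d x = x)]
    exact dvd_add h hdvd
  have hwp : (z ^ p) ^ p ∈ fixedBy ρ := by rwa [← pow_mul]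
  have hb := Nat.gcd_eq_gcd_ab F0.card p
  rw [hcop.gcd_eq_one] at hb
  have h3 : z ^ p = ((z ^ p) ^ F0.card) ^ F0.card.gcdA p * ((z ^ p) ^ p) ^ F0.card.gcdB p := by
    rw [← zpow_natCast _ F0.card, ← zpow_natCast (z ^ p) p, ← zpow_mul, ← zpow_mul, ← zpow_add, ← hb,
      Nat.cast_one, zpow_one]
  rw [h3]
  exact mul_mem (Subgroup.zpow_mem _ hc _) (Subgroup.zpow_mem _ hwp _)

end CfsgLib.FusionBasics.CenterPower
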